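import Cfsg.Agent.H999.IF.EngB

/-!
# S5719, ENG5 and ENG6: two commuting involutions (helper809)

`n c ≤ f(σ) f(τ) |σ^T|` where `c` is the number of `C_T(τ)`-conjugates of `σ`.
-/

set_option autoImplicit false
set_option linter.unusedSectionVars false

namespace Cfsg.Agent.H809.IFC

open MulAction Subgroup Cfsg.Agent.H284 Cfsg.Agent.H209.Fxy Cfsg.Agent.H999.IFB

variable {T : Type*} [Group T] [Finite T] {A : Subgroup T} {Γ : Subgroup (MulAut T)}

/-- the `C_T(τ)`-conjugates of `σ` -/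
def ccl (σ τ : MulAut T) : Set (MulAut T) := {ρ | ∃ x : T, τ x = x ∧ ρ = MulAut.conj x * σ * (MulAut.conj x)⁻¹}

/-- each `C_T(τ)`-conjugate of `σ` shares a fixed point with `τ` -/
theorem ccl_le (h : IF A Γ) {σ : MulAut T} (hσ : σ ∈ Γ) (τ : MulAut T) :
    (ccl σ τ).ncard ≤ fx A τ * (icl σ ∩ (Γ : Set (MulAut T))).ncard := by
  classical
  have hx : ∀ ρ : ccl σ τ, ∃ x : T, τ x = x ∧ (ρ : MulAut T) = MulAut.conj x * σ * (MulAut.conj x)⁻¹ := fun ρ => ρ.2
  choose x hx1 hx2 using hx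
  -- a fixed representative of each coset
  let y : T ⧸ A → T := Quotient.out
  have hy : ∀ ρ : ccl σ τ, (y (x ρ : T ⧸ A))⁻¹ * x ρ ∈ A := by
    intro ρ
    have h1 : ((y (x ρ : T ⧸ A) : T) : T ⧸ A) = (x ρ : T ⧸ A) := QuotientGroup.out_eq' _
    exact QuotientGroup.eq.1 h1
  have hmem : ∀ ρ : ccl σ τ,
      (MulAut.conj (y (x ρ : T ⧸ A)))⁻¹ * (ρ : MulAut T) * MulAut.conj (y (x ρ : T ⧸ A)) ∈
        icl σ ∩ (Γ : Set (MulAut T)) := by
    intro ρ
    have h1 : (MulAut.conj (y (x ρ : T ⧸ A)))⁻¹ * (ρ : MulAut T) * MulAut.conj (y (x ρ : T ⧸ A)) =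
        MulAut.conj ((y (x ρ : T ⧸ A))⁻¹ * x ρ) * σ * (MulAut.conj ((y (x ρ : T ⧸ A))⁻¹ * x ρ))⁻¹ := by
      rw [hx2 ρ, map_mul, map_inv]
      group
    rw [h1]
    refine ⟨⟨_, rfl⟩, ?_⟩
    have h2 := (h.conj _).2 (hy ρ)
    exact Γ.mul_mem (Γ.mul_mem h2 hσ) (Γ.inv_mem h2)
  let φ : ccl σ τ → (fixSet A τ) × (icl σ ∩ (Γ : Set (MulAut T)) : Set (MulAut T)) := fun ρ =>
    (⟨(x ρ : T ⧸ A), x ρ, rfl, by rw [hx1 ρ, inv_mul_cancel]; exact A.one_mem⟩, ⟨_, hmem ρ⟩)
  have hφ : Function.Injective φ := by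
    intro ρ ρ' hρ
    have h1 : (x ρ : T ⧸ A) = (x ρ' : T ⧸ A) := congrArg (fun p => (p.1 : T ⧸ A)) hρ
    have h2 : (MulAut.conj (y (x ρ : T ⧸ A)))⁻¹ * (ρ : MulAut T) * MulAut.conj (y (x ρ : T ⧸ A)) =
        (MulAut.conj (y (x ρ' : T ⧸ A)))⁻¹ * (ρ' : MulAut T) * MulAut.conj (y (x ρ' : T ⧸ A)) :=
      congrArg (fun p => (p.2 : MulAut T)) hρ
    rw [h1] at h2
    exact Subtype.ext (mul_left_cancel (mul_right_cancel h2))
  have h3 := Nat.card_le_card_of_injective φ hφ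
  rw [Nat.card_prod] at h3
  exact h3

theorem main (h : IF A Γ) {σ : MulAut T} (hσ : σ ∈ Γ) (τ : MulAut T) :
    A.index * (ccl σ τ).ncard ≤ fx A σ * fx A τ * (icl σ).ncard := by
  calc A.index * (ccl σ τ).ncard ≤ A.index * (fx A τ * (icl σ ∩ (Γ : Set (MulAut T))).ncard) :=
        Nat.mul_le_mul_left _ (ccl_le h hσ τ)
    _ = fx A τ * (A.index * (icl σ ∩ (Γ : Set (MulAut T))).ncard) := by ring
    _ = fx A τ * (fx A σ * (icl σ).ncard) := by rw [← IF.fix_formula' h hσ]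
    _ = _ := by ring

/-- the arithmetic -/
theorem arith {n c f g N : ℕ} (h : n * c ≤ f * g * N) (hf : f ^ 6 < n) (hg : g ^ 6 < n) (hN : 0 < N) :
    n ^ 2 * c ^ 3 < N ^ 3 ∧ g ^ 4 * c < N ∧ f ^ 4 * c < N := by
  have hn : 0 < n := by omega
  have h1 : f ^ 3 * g ^ 3 < n := by
    have h2 : (f ^ 3 * g ^ 3) ^ 2 < n ^ 2 := by
      calc (f ^ 3 * g ^ 3) ^ 2 = f ^ 6 * g ^ 6 := by ring
        _ < n * n := Nat.mul_lt_mul'' hf hg
        _ = n ^ 2 := by ring
    exact lt_of_pow_lt_pow_left₀ 2 (Nat.zero_le _) h2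
  have key : ∀ a b : ℕ, a ^ 6 < n → b ^ 6 < n → a * b ^ 5 < n := by
    intro a b ha hb
    have h2 : (a * b ^ 5) ^ 6 < n ^ 6 := by
      calc (a * b ^ 5) ^ 6 = a ^ 6 * (b ^ 6) ^ 5 := by ring
        _ < n * n ^ 5 := Nat.mul_lt_mul'' ha (Nat.pow_lt_pow_left hb (by norm_num))
        _ = n ^ 6 := by ring
    exact lt_of_pow_lt_pow_left₀ 6 (Nat.zero_le _) h2
  refine ⟨?_, ?_, ?_⟩
  · have h2 : n * (n ^ 2 * c ^ 3) < n * N ^ 3 := by
      calc n * (n ^ 2 * c ^ 3) = (n * c) ^ 3 := by ring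
        _ ≤ (f * g * N) ^ 3 := Nat.pow_le_pow_left h 3
        _ = f ^ 3 * g ^ 3 * N ^ 3 := by ring
        _ < n * N ^ 3 := Nat.mul_lt_mul_of_pos_right h1 (pow_pos hN 3)
    exact lt_of_mul_lt_mul_left h2 (Nat.zero_le _)
  · have h2 : n * (g ^ 4 * c) < n * N := by
      calc n * (g ^ 4 * c) = g ^ 4 * (n * c) := by ring
        _ ≤ g ^ 4 * (f * g * N) := Nat.mul_le_mul_left _ h
        _ = f * g ^ 5 * N := by ring
        _ < n * N := Nat.mul_lt_mul_of_pos_right (key f g hf hg) hN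
    exact lt_of_mul_lt_mul_left h2 (Nat.zero_le _)
  · have h2 : n * (f ^ 4 * c) < n * N := by
      calc n * (f ^ 4 * c) = f ^ 4 * (n * c) := by ring
        _ ≤ f ^ 4 * (f * g * N) := Nat.mul_le_mul_left _ h
        _ = g * f ^ 5 * N := by ring
        _ < n * N := Nat.mul_lt_mul_of_pos_right (key g f hg hf) hN
    exact lt_of_mul_lt_mul_left h2 (Nat.zero_le _)

/-- ENG6 without the hypotheses that are not needed -/
theorem IF.E4'' (h : IF A Γ) {σ τ : MulAut T} (hσ : σ ∈ Γ) (hτ : τ ∈ Γ) (hs2 : orderOf σ = 2) (ht2 : orderOf τ = 2) :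
    A.index * (ccl σ τ).ncard ≤ fx A σ * fx A τ * (icl σ).ncard ∧
    A.index ^ 2 * (ccl σ τ).ncard ^ 3 < (icl σ).ncard ^ 3 ∧
    fx A τ ^ 4 * (ccl σ τ).ncard < (icl σ).ncard ∧ fx A σ ^ 4 * (ccl σ τ).ncard < (icl σ).ncard := by
  have h1 := main h hσ τ
  have h2 : 0 < (icl σ).ncard := (Set.ncard_pos (Set.toFinite _)).2 ⟨σ, 1, by simp⟩
  exact ⟨h1, arith h1 (h.small σ hσ hs2) (h.small τ hτ ht2) h2⟩

/-- ENG6. The same for commuting involutions `σ ≠ τ` of `Γ` (outer ones included),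
`c` = number of `C_T(τ)`-conjugates of `σ`. -/
theorem IF.E4' (h : IF A Γ) {σ τ : MulAut T} (hσ : σ ∈ Γ) (hτ : τ ∈ Γ) (hs2 : orderOf σ = 2) (ht2 : orderOf τ = 2)
    (hst : σ ≠ τ) (hc : σ * τ = τ * σ) {c : ℕ}
    (hcard : c = {ρ : MulAut T | ∃ x : T, τ x = x ∧ ρ = MulAut.conj x * σ * (MulAut.conj x)⁻¹}.ncard) :
    A.index * c ≤ fx A σ * fx A τ * (icl σ).ncard ∧ A.index ^ 2 * c ^ 3 < (icl σ).ncard ^ 3 ∧
    fx A τ ^ 4 * c < (icl σ).ncard ∧ fx A σ ^ 4 * c < (icl σ).ncard := by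
  rw [hcard]
  exact IF.E4'' h hσ hτ hs2 ht2

theorem card_ccl [IsSimpleGroup T] (hna : ∃ a b : T, a * b ≠ b * a) (s t : T) :
    (ccl (MulAut.conj s) (MulAut.conj t)).ncard =
      (centralizer ({s} : Set T)).relIndex (centralizer ({t} : Set T)) := by
  have hinj : Function.Injective (MulAut.conj : T →* MulAut T) := by
    rw [injective_iff_map_eq_one]
    intro z hz
    apply center_of hna
    intro x
    have h3 := congrArg (fun τ : MulAut T => τ x) hz
    simp only [MulAut.conj_apply, MulAut.one_apply] at h3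
    rwa [mul_inv_eq_iff_eq_mul] at h3
  let f : (centralizer ({t} : Set T)) ⧸ (centralizer ({s} : Set T)).subgroupOf (centralizer ({t} : Set T)) →
      MulAut T := fun c => Quotient.liftOn' c (fun b => MulAut.conj ((b : T) * s * (b : T)⁻¹)) (by
        intro b b' hbb
        rw [QuotientGroup.leftRel_apply, Subgroup.mem_subgroupOf, Subgroup.mem_centralizer_singleton_iff] at hbb
        have h1 : ((b⁻¹ * b' : centralizer ({t} : Set T)) : T) = (b : T)⁻¹ * b' := rfl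
        rw [h1] at hbb
        change MulAut.conj ((b : T) * s * (b : T)⁻¹) = MulAut.conj ((b' : T) * s * (b' : T)⁻¹)
        congr 1
        have h2 : (b' : T) = b * ((b : T)⁻¹ * b') := by group
        have h3 : (b' : T) * s = b * s * ((b : T)⁻¹ * b') := by
          calc (b' : T) * s = b * (((b : T)⁻¹ * b') * s) := by group
            _ = b * (s * ((b : T)⁻¹ * b')) := by rw [hbb]
            _ = _ := by group
        rw [h3]
        group)
  have hf : Function.Injective f := by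
    intro c c' hcc
    induction c using QuotientGroup.induction_on with
    | H b =>
      induction c' using QuotientGroup.induction_on with
      | H b' =>
        have h3 : (b : T) * s * (b : T)⁻¹ = (b' : T) * s * (b' : T)⁻¹ := hinj hcc
        rw [QuotientGroup.eq, Subgroup.mem_subgroupOf, Subgroup.mem_centralizer_singleton_iff]
        change (b : T)⁻¹ * b' * s = s * ((b : T)⁻¹ * b')
        calc (b : T)⁻¹ * b' * s = (b : T)⁻¹ * ((b' : T) * s * (b' : T)⁻¹) * b' := by group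
          _ = (b : T)⁻¹ * ((b : T) * s * (b : T)⁻¹) * b' := by rw [h3]
          _ = _ := by group
  have hr : Set.range f = ccl (MulAut.conj s) (MulAut.conj t) := by
    ext ρ
    constructor
    · rintro ⟨c, rfl⟩
      induction c using QuotientGroup.induction_on with
      | H b =>
        refine ⟨b, ?_, ?_⟩
        · have := Subgroup.mem_centralizer_singleton_iff.1 b.2
          rw [MulAut.conj_apply, mul_inv_eq_iff_eq_mul]
          exact this.symm
        · change MulAut.conj ((b : T) * s * (b : T)⁻¹) = _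
          rw [map_mul, map_mul, map_inv]
    · rintro ⟨x, hx, rfl⟩
      rw [MulAut.conj_apply, mul_inv_eq_iff_eq_mul] at hx
      refine ⟨((⟨x, Subgroup.mem_centralizer_singleton_iff.2 hx.symm⟩ : centralizer ({t} : Set T)) : _ ⧸ _), ?_⟩
      change MulAut.conj (x * s * x⁻¹) = _
      rw [map_mul, map_mul, map_inv]
  rw [← hr, Subgroup.relIndex, Subgroup.index]
  exact Nat.card_range_of_injective hf

/-- ENG5 (helper974). Commuting involutions `s ≠ t` of `A`, `c = |s^{C(t)}| = |C(t) : C(s) ∩ C(t)|`: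
`n c ≤ f(s) f(t) |s^T|`, hence `n² c³ < |s^T|³`, `f(t)⁴ c < |s^T|`, `f(s)⁴ c < |s^T|`. -/
theorem IF.E4 [IsSimpleGroup T] (h : IF A Γ) (hna : ∃ a b : T, a * b ≠ b * a) {s t : T} (hs : s ∈ A) (ht : t ∈ A)
    (hs2 : orderOf s = 2) (ht2 : orderOf t = 2) (hst : s ≠ t) (hc : s * t = t * s) :
    A.index * (centralizer ({s} : Set T)).relIndex (centralizer ({t} : Set T)) ≤
      fx A (MulAut.conj s) * fx A (MulAut.conj t) * (centralizer ({s} : Set T)).index ∧
    A.index ^ 2 * (centralizer ({s} : Set T)).relIndex (centralizer ({t} : Set T)) ^ 3 <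
      (centralizer ({s} : Set T)).index ^ 3 ∧
    fx A (MulAut.conj t) ^ 4 * (centralizer ({s} : Set T)).relIndex (centralizer ({t} : Set T)) <
      (centralizer ({s} : Set T)).index ∧
    fx A (MulAut.conj s) ^ 4 * (centralizer ({s} : Set T)).relIndex (centralizer ({t} : Set T)) <
      (centralizer ({s} : Set T)).index := by
  have h1 := IF.E4'' h ((h.conj s).2 hs) ((h.conj t).2 ht) (by rw [orderOf_conj hna, hs2])
    (by rw [orderOf_conj hna, ht2])
  rwa [card_ccl hna, (IF.E2' h hna hs hs2).2.1] at h1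

end Cfsg.Agent.H809.IFC
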